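import Cfsg.Agent.H2.PermCode

/-!
The search behind the uniqueness of the code: ten 6-subsets of an 11-set with prescribed traces
on the first five points and mutual distances 6.
-/

set_option autoImplicit false

namespace H2

/-- Backtracking search: one candidate from each list, compatible with all earlier choices. -/
def srch (r : ℕ → ℕ → Bool) (fin : List ℕ → Bool) (cs : List (List ℕ)) : List ℕ → Bool :=
  List.rec fin (fun c _ ih l => c.all fun t => !(l.all (r t)) || ih (t :: l)) cs

theorem srch_sound {r : ℕ → ℕ → Bool} {fin : List ℕ → Bool} {cs : List (List ℕ)} {ts : List ℕ}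
    (hm : List.Forall₂ (· ∈ ·) ts cs) : ∀ l, srch r fin cs l = true →
    (∀ t ∈ ts, ∀ s ∈ l, r t s = true) → ts.Pairwise (fun a b => r b a = true) →
    fin (ts.reverse ++ l) = true := by
  induction hm with
  | nil => intro l h _ _; exact h
  | @cons t c ts cs htc _ ih =>
    intro l h h1 h2
    have h3 : (!(l.all (r t)) || srch r fin cs (t :: l)) = true := List.all_eq_true.1 h t htc
    rw [List.all_eq_true.2 (h1 t List.mem_cons_self)] at h3
    rw [List.reverse_cons, List.append_assoc]
    refine ih (t :: l) (by simpa using h3) (fun a ha s hs => ?_) (List.pairwise_cons.1 h2).2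
    rcases List.mem_cons.1 hs with rfl | hs
    · exact (List.pairwise_cons.1 h2).1 a ha
    · exact h1 a (List.mem_cons_of_mem _ ha) s hs

/-- The column of a list of numbers at the digit `x`. -/
def colOf (l : List ℕ) (x : ℕ) : ℕ := List.rec 0 (fun b _ acc => 2 * acc + (b >>> x) % 2) l

theorem testBit_iff_shift (n k : ℕ) : n.testBit k = decide ((n >>> k) % 2 = 1) := by
  rw [Nat.testBit, Nat.one_and_eq_mod_two]
  rcases Nat.mod_two_eq_zero_or_one (n >>> k) with h | h <;> simp [h]

theorem colOf_eq {l l' : List ℕ} (hl : l.length = l'.length) {x y : ℕ}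
    (h : colOf l x = colOf l' y) (k : ℕ) : (l.getD k 0).testBit x = (l'.getD k 0).testBit y := by
  induction l generalizing l' k with
  | nil => cases l' with
    | nil => simp
    | cons _ _ => simp at hl
  | cons b l ih => cases l' with
    | nil => simp at hl
    | cons b' l' =>
      have h1 : 2 * colOf l x + (b >>> x) % 2 = 2 * colOf l' y + (b' >>> y) % 2 := h
      cases k with
      | zero =>
        have : (b >>> x) % 2 = (b' >>> y) % 2 := by omega
        simp only [List.getD_cons_zero, testBit_iff_shift, this]
      | succ k => exact ih (by simpa using hl) (by omega) k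

/-- The set of the first eleven columns, as a number. -/
def colSet (l : List ℕ) : ℕ := Nat.rec 0 (fun x acc => acc ||| 2 ^ colOf l x) 11

theorem colSet_testBit {l : List ℕ} {c : ℕ} (h : (colSet l).testBit c = true) :
    ∃ x < 11, colOf l x = c := by
  have key : ∀ k : ℕ, Nat.testBit (Nat.rec 0 (fun x acc => acc ||| 2 ^ colOf l x) k) c = true →
      ∃ x < k, colOf l x = c := by
    intro k
    induction k with
    | zero => simp
    | succ k ih =>
      intro h
      rw [Nat.testBit_or, Bool.or_eq_true, Nat.testBit_two_pow, decide_eq_true_eq] at h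
      rcases h with h | h
      · obtain ⟨x, hx, e⟩ := ih h; exact ⟨x, by omega, e⟩
      · exact ⟨k, by omega, h⟩
  exact key 11 h

/-- Table of the numbers below 2048 with six digits 1. -/
def tab6 : ℕ := 7524504624649446572185528676635300568431178264212244210737446673776412957921921441877900339979010684667552628574133104860819977029257224373881785655582968017086828599227344594239981602810274587778143007230959719470257585554766212668153541136675885795554972767703543274392611028418817944154731925141298127006118883645946152678307997311707163220893613894595542116337791639335450818211256615054965954860764614507251090708525956582363805700257768018131294498002979167322193673107123656155633223668162252497548531996889382409919007141378799835264024677828286891726838100082332892210219386049448218461500298231808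

theorem tab6_spec : ∀ x < 2048, pop x = 6 → tab6.testBit x = true := by
  have : (List.range 2048).all (fun x => !(Nat.beq (pop x) 6) || tab6.testBit x) = true := by
    decide +kernel
  intro x hx h
  simpa [h] using List.all_eq_true.1 this x (List.mem_range.2 hx)

/-- The 3-subsets of five and of six points. -/
def trip5 : List ℕ := [7, 11, 19, 13, 21, 25, 14, 22, 26, 28]
def trip6 : List ℕ := [7, 11, 19, 35, 13, 21, 37, 25, 41, 49, 14, 22, 38, 26, 42, 50, 28, 44, 52, 56]

/-- The two solutions, up to the order of the columns. -/
def solA : List ℕ := [380, 730, 1590, 1422, 1209, 917, 1613, 1363, 811, 231, 2016]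
def solB : List ℕ := [380, 1210, 918, 1614, 729, 1589, 1421, 1363, 811, 231, 2016]

theorem srch_run : srch (fun t s => tab6.testBit (t ^^^ s))
    (fun l => force (colSet l) fun m => Nat.beq m (colSet solA) || Nat.beq m (colSet solB))
    (trip5.map fun a => trip6.map fun t => a + 32 * t) [2016] = true := by
  decide +kernel

theorem colSet_self (l : List ℕ) : ∀ i < 11, (colSet l).testBit (colOf l i) = true := by
  have key : ∀ k : ℕ, ∀ i < k,
      Nat.testBit (Nat.rec 0 (fun x acc => acc ||| 2 ^ colOf l x) k) (colOf l i) = true := by
    intro k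
    induction k with
    | zero => simp
    | succ k ih =>
      intro i hi
      rw [Nat.testBit_or, Bool.or_eq_true, Nat.testBit_two_pow, decide_eq_true_eq]
      rcases Nat.lt_succ_iff_lt_or_eq.1 hi with h | rfl
      · exact Or.inl (ih i h)
      · exact Or.inr rfl
  exact key 11

theorem biplane (b : ℕ → ℕ) (h1 : ∀ e < 10, b e < 2048) (h2 : ∀ e < 10, pop (b e) = 6)
    (h3 : ∀ e < 10, b e % 32 = trip5.getD e 0) (h4 : ∀ e < 10, pop (b e ^^^ 2016) = 6)
    (h5 : ∀ e < 10, ∀ f < e, pop (b e ^^^ b f) = 6) :
    ∃ S, (S = solA ∨ S = solB) ∧ ∀ i < 11, ∃ x < 11, ∀ k,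
      ((((List.range 10).map b).reverse ++ [2016]).getD k 0).testBit x =
        (S.getD k 0).testBit i := by
  have hc : ∀ e < 10, ∀ y < 64, pop (trip5.getD e 0 + 32 * y) = 6 → y ∈ trip6 := by
    decide +kernel
  have h := srch_sound (ts := (List.range 10).map b) ?_ _ srch_run ?_ ?_
  · rw [force_eq, Bool.or_eq_true, Nat.beq_eq, Nat.beq_eq] at h
    have key : ∀ S : List ℕ, S.length = 11 →
        colSet (((List.range 10).map b).reverse ++ [2016]) = colSet S → ∀ i < 11, ∃ x < 11, ∀ k,
        ((((List.range 10).map b).reverse ++ [2016]).getD k 0).testBit x =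
          (S.getD k 0).testBit i := fun S hS e i hi => by
      obtain ⟨x, hx, e'⟩ := colSet_testBit (e ▸ colSet_self S i hi)
      exact ⟨x, hx, colOf_eq (by simp [hS]) e'⟩
    rcases h with h | h
    · exact ⟨solA, Or.inl rfl, key _ rfl h⟩
    · exact ⟨solB, Or.inr rfl, key _ rfl h⟩
  · rw [show trip5 = (List.range 10).map (trip5.getD · 0) by decide, List.map_map,
      List.forall₂_map_left_iff, List.forall₂_map_right_iff, List.forall₂_same]
    intro e he
    have he := List.mem_range.1 he
    have e1 : b e = trip5.getD e 0 + 32 * (b e / 32) := by rw [← h3 e he]; omega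
    exact List.mem_map.2 ⟨b e / 32, hc e he _ (by have := h1 e he; omega) (e1 ▸ h2 e he), e1.symm⟩
  · intro t ht s hs
    obtain ⟨e, he, rfl⟩ := List.mem_map.1 ht
    have he := List.mem_range.1 he
    rw [List.mem_singleton.1 hs]
    exact tab6_spec _ (Nat.xor_lt_two_pow (n := 11) (h1 e he) (by norm_num)) (h4 e he)
  · rw [List.pairwise_map]
    refine (List.pairwise_lt_range (n := 10)).imp_of_mem fun {f e} hf he hfe => ?_
    exact tab6_spec _ (Nat.xor_lt_two_pow (n := 11) (h1 e (List.mem_range.1 he))
      (h1 f (List.mem_range.1 hf))) (h5 e (List.mem_range.1 he) f hfe)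

end H2
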