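import Cfsg.Agent.H2.Biplane

/-!
Uniqueness of the code: a family of 4096 subsets of a 24-set, closed under symmetric difference,
with all sizes divisible by 4 and none equal to 4, is the family of C-sets up to a bijection.
-/

set_option autoImplicit false

namespace H2
open Cfsg
open scoped Pointwise

/-- The hypotheses on the family of sets. -/
structure Good {α : Type*} [DecidableEq α] (Cs : Set (Finset α)) : Prop where
  sd : ∀ s ∈ Cs, ∀ t ∈ Cs, symmDiff s t ∈ Cs
  card : Cs.ncard = 4096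
  dvd : ∀ s ∈ Cs, 4 ∣ s.card
  ne4 : ∀ s ∈ Cs, s.card ≠ 4

theorem packing {α : Type*} [Fintype α] [DecidableEq α] (F : Finset (Finset α)) (k j : ℕ)
    (hk : ∀ s ∈ F, s.card = k) (hd : ∀ s ∈ F, ∀ t ∈ F, s ≠ t → 8 ≤ (symmDiff s t).card)
    (hj : 2 * k < 2 * j + 8) : F.card * k.choose j ≤ (Fintype.card α).choose j := by
  have hU : (F.biUnion fun o => o.powersetCard j).card = F.card * k.choose j := by
    rw [Finset.card_biUnion, Finset.sum_congr rfl (g := fun _ => k.choose j), Finset.sum_const,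
      smul_eq_mul]
    · intro o ho
      rw [Finset.card_powersetCard, hk o ho]
    · intro o ho o' ho' hne
      rw [Function.onFun, Finset.disjoint_left]
      intro t ht ht'
      rw [Finset.mem_powersetCard] at ht ht'
      have h1 := Finset.card_le_card (Finset.subset_inter ht.1 ht'.1)
      have h2 := card_symmDiff_add o o'
      have h3 := hd o ho o' ho' hne
      rw [hk o ho, hk o' ho'] at h2
      omega
  rw [← hU, ← Finset.card_univ, ← Finset.card_powersetCard]
  refine Finset.card_le_card fun t ht => ?_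
  obtain ⟨o, -, ht⟩ := Finset.mem_biUnion.1 ht
  exact Finset.mem_powersetCard.2 ⟨Finset.subset_univ _, (Finset.mem_powersetCard.1 ht).2⟩

theorem exists_perm_two_sets {α : Type*} [Fintype α] [DecidableEq α] {s₁ s₂ t₁ t₂ : Finset α}
    (h1 : s₁.card = t₁.card) (h2 : s₂.card = t₂.card) (h3 : (s₁ ∩ s₂).card = (t₁ ∩ t₂).card) :
    ∃ g : Equiv.Perm α, g • s₁ = t₁ ∧ g • s₂ = t₂ := by
  have key : ∀ (a b : Finset α) (c : Bool × Bool),
      Fintype.card {x // (decide (x ∈ a), decide (x ∈ b)) = c} =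
        if c.1 then (if c.2 then (a ∩ b).card else a.card - (a ∩ b).card)
        else (if c.2 then b.card - (a ∩ b).card
          else Fintype.card α - (a.card + b.card - (a ∩ b).card)) := by
    intro a b c
    rw [Fintype.card_subtype]
    rcases c with ⟨_ | _, _ | _⟩
    · rw [show (Finset.univ.filter fun x => (decide (x ∈ a), decide (x ∈ b)) = (false, false)) =
        (a ∪ b)ᶜ by ext x; simp, Finset.card_compl, Finset.card_union]; simp
    · rw [show (Finset.univ.filter fun x => (decide (x ∈ a), decide (x ∈ b)) = (false, true)) =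
        b \ a by ext x; simp [and_comm], Finset.card_sdiff]; simp
    · rw [show (Finset.univ.filter fun x => (decide (x ∈ a), decide (x ∈ b)) = (true, false)) =
        a \ b by ext x; simp, Finset.card_sdiff, Finset.inter_comm]; simp
    · rw [show (Finset.univ.filter fun x => (decide (x ∈ a), decide (x ∈ b)) = (true, true)) =
        a ∩ b by ext x; simp]; simp
  let e : ∀ c : Bool × Bool, {x // (decide (x ∈ s₁), decide (x ∈ s₂)) = c} ≃
      {x // (decide (x ∈ t₁), decide (x ∈ t₂)) = c} := fun c =>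
    Fintype.equivOfCardEq (by rw [key, key, h1, h2, h3])
  have he := Equiv.ofFiberEquiv_map e
  simp only [Prod.mk.injEq, decide_eq_decide] at he
  refine ⟨Equiv.ofFiberEquiv e, ?_, ?_⟩
  · ext x
    obtain ⟨y, rfl⟩ := (Equiv.ofFiberEquiv e).surjective x
    rw [(he y).1]
    exact Finset.smul_mem_smul_finset_iff (a := (Equiv.ofFiberEquiv e : Equiv.Perm α))
  · ext x
    obtain ⟨y, rfl⟩ := (Equiv.ofFiberEquiv e).surjective x
    rw [(he y).2]
    exact Finset.smul_mem_smul_finset_iff (a := (Equiv.ofFiberEquiv e : Equiv.Perm α))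

namespace Good
variable {Cs : Set (Finset GolayPt)} (h : Good Cs)
include h

theorem empty : ∅ ∈ Cs := by
  obtain ⟨s, hs⟩ := Set.nonempty_of_ncard_ne_zero (s := Cs) (by rw [h.card]; norm_num)
  simpa using h.sd s hs s hs

theorem smul (g : Equiv.Perm GolayPt) : Good (g • Cs) where
  sd := by
    rintro _ ⟨s, hs, rfl⟩ _ ⟨t, ht, rfl⟩
    exact ⟨_, h.sd s hs t ht, Finset.smul_finset_symmDiff⟩
  card := by rw [Set.ncard_smul_set, h.card]
  dvd := by
    rintro _ ⟨s, hs, rfl⟩
    simpa using h.dvd s hs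
  ne4 := by
    rintro _ ⟨s, hs, rfl⟩
    simpa using h.ne4 s hs

theorem inter_even {s t : Finset GolayPt} (hs : s ∈ Cs) (ht : t ∈ Cs) : 2 ∣ (s ∩ t).card := by
  have h0 := card_symmDiff_add s t
  have h1 := h.dvd s hs
  have h2 := h.dvd t ht
  have h3 := h.dvd _ (h.sd s hs t ht)
  omega

theorem dist {s t : Finset GolayPt} (hs : s ∈ Cs) (ht : t ∈ Cs) (hne : s ≠ t) :
    8 ≤ (symmDiff s t).card := by
  have h1 := h.dvd _ (h.sd s hs t ht)
  have h2 := h.ne4 _ (h.sd s hs t ht)
  have h3 : (symmDiff s t).card ≠ 0 := by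
    rw [Ne, Finset.card_eq_zero, ← Finset.bot_eq_empty, symmDiff_eq_bot]; exact hne
  omega

theorem exists_dodecad : ∃ D ∈ Cs, D.card = 12 := by
  by_contra hc
  push Not at hc
  have hfin : Cs.Finite := Set.toFinite _
  have hF : hfin.toFinset.card = 4096 := by rw [← h.card, Set.ncard_eq_toFinset_card _ hfin]
  have b1 : ∀ k j, 2 * k < 2 * j + 8 →
      (hfin.toFinset.filter fun s => s.card = k).card * k.choose j ≤ Nat.choose 24 j := by
    intro k j hj
    rw [← card_pt]
    refine packing _ k j (fun s hs => (Finset.mem_filter.1 hs).2) (fun s hs t ht => ?_) hj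
    exact h.dist (hfin.mem_toFinset.1 (Finset.mem_filter.1 hs).1)
      (hfin.mem_toFinset.1 (Finset.mem_filter.1 ht).1)
  have b2 : ∀ k j, 2 * (24 - k) < 2 * j + 8 →
      (hfin.toFinset.filter fun s => s.card = k).card * (24 - k).choose j ≤ Nat.choose 24 j := by
    intro k j hj
    rw [← Finset.card_image_of_injective _ compl_injective]
    conv_rhs => rw [← card_pt]
    refine packing _ (24 - k) j (fun s hs => ?_) (fun s hs t ht hne => ?_) hj
    · obtain ⟨s', hs', rfl⟩ := Finset.mem_image.1 hs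
      rw [Finset.card_compl, card_pt, (Finset.mem_filter.1 hs').2]
    · obtain ⟨s', hs', rfl⟩ := Finset.mem_image.1 hs
      obtain ⟨t', ht', rfl⟩ := Finset.mem_image.1 ht
      rw [compl_symmDiff_compl]
      exact h.dist (hfin.mem_toFinset.1 (Finset.mem_filter.1 hs').1)
        (hfin.mem_toFinset.1 (Finset.mem_filter.1 ht').1) fun e => hne (by rw [e])
  have hsum := Finset.card_eq_sum_card_fiberwise (f := Finset.card) (s := hfin.toFinset)
    (t := {0, 8, 16, 20, 24}) (fun s hs => by
      have hs := hfin.mem_toFinset.1 hs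
      have h1 := h.dvd s hs
      have h2 := h.ne4 s hs
      have h3 := hc s hs
      have h4 : s.card ≤ 24 := card_pt ▸ Finset.card_le_univ s
      simp only [Finset.coe_insert, Finset.coe_singleton, Set.mem_insert_iff, Set.mem_singleton_iff]
      omega)
  rw [hF, Finset.sum_insert (by decide), Finset.sum_insert (by decide),
    Finset.sum_insert (by decide), Finset.sum_insert (by decide), Finset.sum_singleton] at hsum
  have c0 := b1 0 0 (by norm_num)
  have c8 := b1 8 5 (by norm_num)
  have c16 := b2 16 5 (by norm_num)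
  have c20 := b2 20 1 (by norm_num)
  have c24 := b2 24 0 (by norm_num)
  have e1 : Nat.choose 24 5 = 42504 := by decide +kernel
  have e2 : Nat.choose 8 5 = 56 := by decide +kernel
  simp only [Nat.choose_zero_right, Nat.choose_one_right, Nat.reduceSub, e1, e2] at c0 c8 c16 c20 c24
  omega

theorem card_inter_of_two {D c : Finset GolayPt} (hD : D ∈ Cs) (h12 : D.card = 12) (hc : c ∈ Cs)
    (h2 : (c \ D).card = 2) : (c ∩ D).card = 6 := by
  have h0 := card_symmDiff_add c D
  have h1 := Finset.card_sdiff_add_card_inter c D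
  have h3 := h.dvd c hc
  have h4 := h.ne4 c hc
  have h5 := h.ne4 _ (h.sd c hc D hD)
  have h6 : (c ∩ D).card ≤ D.card := Finset.card_le_card Finset.inter_subset_right
  omega

theorem exists_word {D : Finset GolayPt} (hD : D ∈ Cs) (h12 : D.card = 12) {z w i : GolayPt}
    (hz : z ∈ D) (hw : w ∉ D) (hi : i ∉ D) (hiw : i ≠ w) :
    ∃ c ∈ Cs, z ∉ c ∧ c \ D = {i, w} := by
  have hfin : Cs.Finite := Set.toFinite _
  have hF : hfin.toFinset.card = 4096 := by rw [← h.card, Set.ncard_eq_toFinset_card _ hfin]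
  have heven : ∀ c ∈ Cs, 2 ∣ (c \ D).card := fun c hc => by
    have h1 := Finset.card_sdiff_add_card_inter c D
    have h2 := h.dvd c hc
    have h3 := h.inter_even hc hD
    omega
  have h0 : 2048 ≤ (hfin.toFinset.filter fun c => z ∉ c).card := by
    have h1 := Finset.card_filter_add_card_filter_not (s := hfin.toFinset) fun c => z ∈ c
    have h2 : (hfin.toFinset.filter fun c => z ∈ c).card ≤
        (hfin.toFinset.filter fun c => z ∉ c).card := by
      refine Finset.card_le_card_of_injOn (fun c => symmDiff c D) (fun c hc => ?_)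
        (fun c _ c' _ e => symmDiff_left_injective D e)
      rw [Finset.mem_coe, Finset.mem_filter] at hc ⊢
      exact ⟨hfin.mem_toFinset.2 (h.sd c (hfin.mem_toFinset.1 hc.1) D hD), by
        simp [Finset.mem_symmDiff, hc.2, hz]⟩
    omega
  have hsurj := Finset.surjOn_of_injOn_of_card_le (s := hfin.toFinset.filter fun c => z ∉ c)
    (t := (Dᶜ.erase w).powerset) (fun c => c ∩ Dᶜ.erase w)
    (fun c _ => Finset.mem_coe.2 (Finset.mem_powerset.2 Finset.inter_subset_right))
    (fun c hc c' hc' e => by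
      rw [Finset.mem_coe, Finset.mem_filter] at hc hc'
      have hs := h.sd c (hfin.mem_toFinset.1 hc.1) c' (hfin.mem_toFinset.1 hc'.1)
      have h1 : symmDiff c c' \ D ⊆ {w} := by
        intro x hx
        rw [Finset.mem_singleton]
        by_contra hxw
        have := Finset.ext_iff.1 e x
        simp only [Finset.mem_sdiff, Finset.mem_symmDiff] at hx
        simp only [Finset.mem_inter, Finset.mem_erase, Finset.mem_compl] at this
        tauto
      have h2 := Finset.card_le_card h1
      have h3 := heven _ hs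
      rw [Finset.card_singleton] at h2
      have h4 := Finset.card_sdiff_add_card_inter (symmDiff c c') D
      have h5 := card_symmDiff_add (symmDiff c c') D
      have h6 := h.dvd _ hs
      have h7 := h.ne4 _ hs
      have h8 := h.ne4 _ (h.sd _ hs D hD)
      have h9 : (symmDiff c c' ∩ D).card ≤ (D.erase z).card := Finset.card_le_card fun x hx => by
        rw [Finset.mem_inter] at hx
        refine Finset.mem_erase.2 ⟨?_, hx.2⟩
        rintro rfl
        have := hx.1
        simp [Finset.mem_symmDiff, hc.2, hc'.2] at this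
      rw [Finset.card_erase_of_mem hz] at h9
      have : (symmDiff c c').card = 0 := by omega
      rwa [Finset.card_eq_zero, ← Finset.bot_eq_empty, symmDiff_eq_bot] at this)
    (by rw [Finset.card_powerset, Finset.card_erase_of_mem (Finset.mem_compl.2 hw),
      Finset.card_compl, card_pt, h12]; exact h0)
  obtain ⟨c, hc, e⟩ := hsurj (show ({i} : Finset GolayPt) ∈ ((Dᶜ.erase w).powerset : Set _) by
    simp [hi, hiw])
  rw [Finset.mem_coe, Finset.mem_filter] at hc
  refine ⟨c, hfin.mem_toFinset.1 hc.1, hc.2, ?_⟩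
  have e' : ∀ x, (x ∈ c ∧ x ≠ w ∧ x ∉ D) ↔ x = i := fun x => by
    simpa using Finset.ext_iff.1 e x
  have hwc : w ∈ c := by
    by_contra hwc
    have h1 : c \ D = {i} := by
      ext x
      rw [Finset.mem_sdiff, Finset.mem_singleton, ← e']
      exact ⟨fun hx => ⟨hx.1, fun e => hwc (e ▸ hx.1), hx.2⟩, fun hx => ⟨hx.1, hx.2.2⟩⟩
    have h2 := heven c (hfin.mem_toFinset.1 hc.1)
    rw [h1, Finset.card_singleton] at h2
    omega
  ext x
  rw [Finset.mem_sdiff, Finset.mem_insert, Finset.mem_singleton, ← e']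
  by_cases hx : x = w
  · simp [hx, hwc, hw]
  · simp [hx]

theorem smul_encL (a : Equiv.Perm GolayPt) {l : List ℕ} (hl : ∀ b ∈ l, a • fs b ∈ Cs) (m : ℕ) :
    a • fs (encL l m) ∈ Cs := by
  induction l generalizing m with
  | nil => rw [encL_nil, fs_zero, Finset.smul_finset_empty]; exact h.empty
  | cons c l ih =>
    rw [encL_cons, fs_xor, Finset.smul_finset_symmDiff]
    refine h.sd _ ?_ _ (ih (fun b hb => hl b (List.mem_cons_of_mem _ hb)) _)
    rcases Nat.mod_two_eq_zero_or_one m with h1 | h1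
    · rw [h1, zero_mul, fs_zero, Finset.smul_finset_empty]; exact h.empty
    · rw [h1, one_mul]; exact hl c List.mem_cons_self

end Good

/-- The two points off the first dodecad. -/
def hiP (i : ℕ) : ℕ := 4096 ^^^ 2 ^ i

theorem testBit_lo_hi {x a : ℕ} (hx : x < 2048) (ha : 13 ≤ a) (t : ℕ) :
    (x ^^^ hiP a).testBit t = if t < 11 then x.testBit t else decide (t = 12 ∨ t = a) := by
  rw [hiP, Nat.testBit_xor, Nat.testBit_xor, show 4096 = 2 ^ 12 from rfl, Nat.testBit_two_pow,
    Nat.testBit_two_pow]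
  split_ifs with h
  · simp [show 12 ≠ t by omega, show a ≠ t by omega]
  · rw [Nat.testBit_eq_false_of_lt (lt_of_lt_of_le hx
      (Nat.pow_le_pow_right (n := 2) (by norm_num) (show 11 ≤ t by omega)))]
    by_cases h1 : t = 12
    · simp [h1, show a ≠ 12 by omega]
    · simp [h1, Ne.symm h1, eq_comm]

theorem fs_lo_hi {x y : ℕ} (hx : x < 2048) (hy : y &&& 4095 = 0) :
    fs (x ^^^ y) ∩ fs 4095 = fs x ∧ fs (x ^^^ y) \ fs 4095 = fs y := by
  have h1 : x &&& 4095 = x := by
    rw [show 4095 = 2 ^ 12 - 1 from rfl, Nat.and_two_pow_sub_one_eq_mod]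
    exact Nat.mod_eq_of_lt (by omega)
  have h2 : fs x ⊆ fs 4095 := by rw [← h1, fs_and]; exact Finset.inter_subset_right
  have h3 : ∀ p ∈ fs y, p ∉ fs 4095 := fun p hp hp' => by
    have : p ∈ fs (y &&& 4095) := by rw [fs_and]; exact Finset.mem_inter.2 ⟨hp, hp'⟩
    rw [hy, fs_zero] at this; simp at this
  rw [fs_xor]
  constructor <;> ext p <;> have := @h2 p <;> have := h3 p <;>
    simp only [Finset.mem_inter, Finset.mem_sdiff, Finset.mem_symmDiff] <;> tauto

/-- The twelve standard words built on a solution of the search. -/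
def stdW (S : List ℕ) (k : ℕ) : ℕ := if k < 11 then S.getD k 0 ^^^ hiP (23 - k) else 4095

theorem std_spec {S : List ℕ} (hS : S = solA ∨ S = solB) :
    (∀ k < 11, S.getD k 0 < 2048) ∧
    (∀ i < 24, ∀ i' < 24, (∀ k < 12, (stdW S k).testBit i = (stdW S k).testBit i') → i = i') ∧
    ∃ ρ : ℕ, isPerm ρ = true ∧ ∃ co : List ℕ,
      bas = co.map (encL ((List.range 12).map fun k => imgC ρ (stdW S k))) := by
  rcases hS with rfl | rfl
  · exact ⟨by decide +kernel, by decide +kernel, 435648004683620397991679873182668898,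
      by decide +kernel, [2856, 774, 354, 284, 108, 632, 822, 1614, 86, 860, 627, 442],
      by decide +kernel⟩
  · exact ⟨by decide +kernel, by decide +kernel, 435569406761525624364191200737237090,
      by decide +kernel, [2756, 650, 226, 156, 108, 628, 730, 1582, 58, 700, 627, 470],
      by decide +kernel⟩

theorem Good.equiv_of_std {Cs : Set (Finset GolayPt)} (h : Good Cs) (hD : fs 4095 ∈ Cs)
    (hc : fs (2016 ^^^ hiP 13) ∈ Cs) : ∃ g : Equiv.Perm GolayPt, ∀ s ∈ csets, g • s ∈ Cs := by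
  have h12 : (fs 4095).card = 12 := by rw [card_fs]; decide +kernel
  have hlo : ∀ i, 14 ≤ i → i < 24 → ∃ x < 2048, fs (x ^^^ hiP i) ∈ Cs := by
    intro i hi hi'
    obtain ⟨c, hc, hz, e⟩ := h.exists_word hD h12 (z := pt 11) (w := pt 12) (i := pt i)
      (by decide +kernel) (by decide +kernel) (by revert i; decide +kernel)
      (by revert i; decide +kernel)
    obtain ⟨n, -, rfl⟩ := exists_fs c
    refine ⟨n % 2048, Nat.mod_lt _ (by norm_num), ?_⟩
    convert hc using 1
    ext p
    obtain ⟨t, ht, rfl⟩ : ∃ t < 24, p = pt t := ⟨_, idx_lt p, (pt_idx p).symm⟩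
    have e1 := Finset.ext_iff.1 e (pt t)
    rw [Finset.mem_sdiff, Finset.mem_insert, Finset.mem_singleton, pt_inj ht hi',
      pt_inj ht (by norm_num), pt_mem_fs ht, pt_mem_fs ht, show 4095 = 2 ^ 12 - 1 from rfl,
      Nat.testBit_two_pow_sub_one] at e1
    rw [pt_mem_fs (by norm_num)] at hz
    rw [pt_mem_fs ht, pt_mem_fs ht, testBit_lo_hi (Nat.mod_lt _ (by norm_num)) (by omega)]
    split_ifs with h11
    · rw [show 2048 = 2 ^ 11 from rfl, Nat.testBit_mod_two_pow]; simp [h11]
    · by_cases h' : t = 11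
      · subst h'; simp [hz, show 11 ≠ i by omega]
      · simp only [decide_eq_true_eq, show ¬ t < 12 by omega] at e1 ⊢
        tauto
  choose! lo hlo1 hlo2 using hlo
  have W2 : ∀ x < 2048, ∀ y, y &&& 4095 = 0 → pop y = 2 → fs (x ^^^ y) ∈ Cs → pop x = 6 := by
    intro x hx y hy h2 hm
    have := h.card_inter_of_two hD h12 hm (by rw [(fs_lo_hi hx hy).2, card_fs, h2])
    rwa [(fs_lo_hi hx hy).1, card_fs] at this
  have d1 : ∀ i < 24, 13 ≤ i → hiP i &&& 4095 = 0 ∧ pop (hiP i) = 2 := by decide +kernel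
  have d2 : ∀ i < 24, ∀ j < 24, 13 ≤ i → 13 ≤ j → i ≠ j →
      (hiP i ^^^ hiP j) &&& 4095 = 0 ∧ pop (hiP i ^^^ hiP j) = 2 := by
    have a1 : ∀ i < 24, ∀ j < 24, 13 ≤ i → 13 ≤ j → (hiP i ^^^ hiP j) &&& 4095 = 0 := by
      decide +kernel
    have a2 : ∀ i < 24, ∀ j < 24, 13 ≤ i → 13 ≤ j → i ≠ j → pop (hiP i ^^^ hiP j) = 2 := by
      decide +kernel
    exact fun i hi j hj h1 h2 h3 => ⟨a1 i hi j hj h1 h2, a2 i hi j hj h1 h2 h3⟩
  have d3 : ∀ i < 24, ∀ j < 24, 14 ≤ i → 14 ≤ j → i ≠ j →
      pop (hiP i ^^^ hiP j ^^^ hiP 13) = 4 := by decide +kernel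
  have p1 : ∀ i, 14 ≤ i → i < 24 → pop (lo i) = 6 := fun i hi hi' =>
    W2 _ (hlo1 i hi hi') _ (d1 i hi' (by omega)).1 (d1 i hi' (by omega)).2 (hlo2 i hi hi')
  have p2 : ∀ i, 14 ≤ i → i < 24 → pop (lo i ^^^ 2016) = 6 := fun i hi hi' => by
    have d := d2 i hi' 13 (by norm_num) (by omega) le_rfl (by omega)
    refine W2 _ (Nat.xor_lt_two_pow (n := 11) (hlo1 i hi hi') (by norm_num)) _ d.1 d.2 ?_
    have := h.sd _ (hlo2 i hi hi') _ hc
    rwa [← fs_xor, show lo i ^^^ hiP i ^^^ (2016 ^^^ hiP 13) =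
      lo i ^^^ 2016 ^^^ (hiP i ^^^ hiP 13) by ac_rfl] at this
  have p3 : ∀ i, 14 ≤ i → i < 24 → ∀ j, 14 ≤ j → j < 24 → i ≠ j → pop (lo i ^^^ lo j) = 6 :=
    fun i hi hi' j hj hj' hij => by
      have d := d2 i hi' j hj' (by omega) (by omega) hij
      refine W2 _ (Nat.xor_lt_two_pow (n := 11) (hlo1 i hi hi') (hlo1 j hj hj')) _ d.1 d.2 ?_
      have := h.sd _ (hlo2 i hi hi') _ (hlo2 j hj hj')
      rwa [← fs_xor, show lo i ^^^ hiP i ^^^ (lo j ^^^ hiP j) =
        lo i ^^^ lo j ^^^ (hiP i ^^^ hiP j) by ac_rfl] at this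
  have p4 : ∀ i, 14 ≤ i → i < 24 → ∀ j, 14 ≤ j → j < 24 → i ≠ j → lo i ^^^ lo j ≠ 2016 :=
    fun i hi hi' j hj hj' hij e => by
      have := h.sd _ (h.sd _ (hlo2 i hi hi') _ (hlo2 j hj hj')) _ hc
      rw [← fs_xor, ← fs_xor, show lo i ^^^ hiP i ^^^ (lo j ^^^ hiP j) ^^^ (2016 ^^^ hiP 13) =
        lo i ^^^ lo j ^^^ 2016 ^^^ (hiP i ^^^ hiP j ^^^ hiP 13) by ac_rfl, e, Nat.xor_self,
        Nat.zero_xor] at this
      exact h.ne4 _ this (by rw [card_fs, d3 i hi' j hj' hi hj hij])
  have n1 : ∀ x < 2048, pop x = 6 → pop (x ^^^ 2016) = 6 → x % 32 ∈ trip5 := by decide +kernel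
  have n2 : ∀ x < 2048, x % 32 = 0 → pop x = 6 → x = 2016 := by decide +kernel
  have hsurj := Finset.surjOn_of_injOn_of_card_le (s := Finset.Ico 14 24) (t := trip5.toFinset)
    (fun i => lo i % 32)
    (fun i hi => by
      rw [Finset.mem_coe, Finset.mem_Ico] at hi
      exact Finset.mem_coe.2 (List.mem_toFinset.2
        (n1 _ (hlo1 i hi.1 hi.2) (p1 i hi.1 hi.2) (p2 i hi.1 hi.2))))
    (fun i hi j hj e => by
      rw [Finset.mem_coe, Finset.mem_Ico] at hi hj
      by_contra hij
      refine p4 i hi.1 hi.2 j hj.1 hj.2 hij (n2 _ (Nat.xor_lt_two_pow (n := 11) (hlo1 i hi.1 hi.2)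
        (hlo1 j hj.1 hj.2)) ?_ (p3 i hi.1 hi.2 j hj.1 hj.2 hij))
      have := Nat.xor_mod_two_pow (a := lo i) (b := lo j) (n := 5)
      norm_num at this
      simp only at e
      rw [this, e, Nat.xor_self])
    (by decide +kernel)
  have hj : ∀ e < 10, ∃ i, 14 ≤ i ∧ i < 24 ∧ lo i % 32 = trip5.getD e 0 := fun e he => by
    obtain ⟨i, hi, e'⟩ := hsurj (show trip5.getD e 0 ∈ (trip5.toFinset : Set ℕ) by
      rw [Finset.mem_coe]; revert e; decide +kernel)
    rw [Finset.mem_coe, Finset.mem_Ico] at hi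
    exact ⟨i, hi.1, hi.2, e'⟩
  choose! j hj1 hj2 hj3 using hj
  have hjinj : ∀ e < 10, ∀ f < 10, j e = j f → e = f := fun e he f hf hef => by
    have : trip5.getD e 0 = trip5.getD f 0 := by rw [← hj3 e he, hef, hj3 f hf]
    clear hef
    revert e f; decide +kernel
  obtain ⟨S, hS, hcol⟩ := biplane (fun e => lo (j e)) (fun e he => hlo1 _ (hj1 e he) (hj2 e he))
    (fun e he => p1 _ (hj1 e he) (hj2 e he)) hj3 (fun e he => p2 _ (hj1 e he) (hj2 e he))
    (fun e he f hf => p3 _ (hj1 e he) (hj2 e he) _ (hj1 f (by omega)) (hj2 f (by omega))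
      fun e' => by have := hjinj e he f (by omega) e'; omega)
  obtain ⟨hS1, hS2, ρ, hρ, co, hco⟩ := std_spec hS
  -- the twelve words of the family
  set jj : ℕ → ℕ := fun k => if k < 10 then j (9 - k) else 13 with hjj
  set l := ((List.range 10).map fun e => lo (j e)).reverse ++ [2016] with hl
  have hjj1 : ∀ k < 11, 13 ≤ jj k ∧ jj k < 24 := fun k hk => by
    simp only [hjj]
    split_ifs with h10
    · have := hj1 (9 - k) (by omega); have := hj2 (9 - k) (by omega); omega
    · omega
  have hjj2 : ∀ k < 11, ∀ k' < 11, jj k = jj k' → k = k' := fun k hk k' hk' e => by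
    simp only [hjj] at e
    split_ifs at e with h10 h10' h10'
    · have := hjinj _ (by omega) _ (by omega) e; omega
    · have := hj1 (9 - k) (by omega); omega
    · have := hj1 (9 - k') (by omega); omega
    · omega
  have hl1 : ∀ k < 11, l.getD k 0 < 2048 ∧ fs (l.getD k 0 ^^^ hiP (jj k)) ∈ Cs := fun k hk => by
    by_cases h10 : k < 10
    · have e : l.getD k 0 = lo (j (9 - k)) := by interval_cases k <;> rfl
      simp only [e, hjj, if_pos h10]
      exact ⟨hlo1 _ (hj1 _ (by omega)) (hj2 _ (by omega)),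
        hlo2 _ (hj1 _ (by omega)) (hj2 _ (by omega))⟩
    · obtain rfl : k = 10 := by omega
      exact ⟨by show 2016 < 2048; norm_num, hc⟩
  set V : ℕ → ℕ := fun k => if k < 11 then l.getD k 0 ^^^ hiP (jj k) else 4095 with hV
  have hVm : ∀ k, fs (V k) ∈ Cs := fun k => by
    simp only [hV]
    split_ifs with hk
    exacts [(hl1 k hk).2, hD]
  have b4095 : ∀ t, (4095 : ℕ).testBit t = decide (t < 12) := fun t =>
    Nat.testBit_two_pow_sub_one 12 t
  have claim : ∀ i < 24, ∃ x < 24, ∀ k < 12, (V k).testBit x = (stdW S k).testBit i := by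
    intro i hi
    by_cases h11 : i < 11
    · obtain ⟨x, hx, e⟩ := hcol i h11
      refine ⟨x, by omega, fun k _ => ?_⟩
      simp only [hV, stdW]
      split_ifs with hk
      · rw [testBit_lo_hi (hl1 k hk).1 (hjj1 k hk).1, testBit_lo_hi (hS1 k hk) (by omega),
          if_pos hx, if_pos h11, e]
      · rw [b4095, b4095]; simp; omega
    by_cases h13 : i < 13
    · refine ⟨i, hi, fun k _ => ?_⟩
      simp only [hV, stdW]
      split_ifs with hk
      · rw [testBit_lo_hi (hl1 k hk).1 (hjj1 k hk).1, testBit_lo_hi (hS1 k hk) (by omega),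
          if_neg h11, if_neg h11, decide_eq_decide]
        have := hjj1 k hk
        omega
      · rfl
    · have h1 := hjj1 (23 - i) (by omega)
      refine ⟨jj (23 - i), h1.2, fun k _ => ?_⟩
      simp only [hV, stdW]
      split_ifs with hk
      · rw [testBit_lo_hi (hl1 k hk).1 (hjj1 k hk).1, testBit_lo_hi (hS1 k hk) (by omega),
          if_neg (by omega), if_neg h11, decide_eq_decide]
        have := hjj2 (23 - i) (by omega) k hk
        constructor
        · rintro (e | e)
          · omega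
          · have := this e; omega
        · rintro (e | e)
          · omega
          · right; congr 1; omega
      · rw [b4095, b4095]; simp; omega
  choose! g0 hg1 hg2 using claim
  have hinj : Function.Injective fun p : GolayPt => pt (g0 (idx p)) := fun p q e => by
    rw [pt_inj (hg1 _ (idx_lt p)) (hg1 _ (idx_lt q))] at e
    exact idx_injective (hS2 _ (idx_lt p) _ (idx_lt q) fun k hk => by
      rw [← hg2 _ (idx_lt p) k hk, ← hg2 _ (idx_lt q) k hk, e])
  set g : Equiv.Perm GolayPt := Equiv.ofBijective _ (Finite.injective_iff_bijective.1 hinj) with hg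
  have hgW : ∀ k < 12, g • fs (stdW S k) = fs (V k) := fun k hk => by
    ext q
    obtain ⟨p, rfl⟩ := g.surjective q
    rw [show g p = g • p from rfl, Finset.smul_mem_smul_finset_iff, mem_fs, ← hg2 _ (idx_lt p) k hk]
    exact (pt_mem_fs (hg1 _ (idx_lt p))).symm
  obtain ⟨r, hr⟩ := exists_rep hρ
  refine ⟨g * r⁻¹, fun s hs => ?_⟩
  obtain ⟨m, -, rfl⟩ := mem_csets_iff_enc.1 hs
  refine h.smul_encL _ (fun b hb => ?_) m
  rw [hco, List.mem_map] at hb
  obtain ⟨c, -, rfl⟩ := hb
  refine h.smul_encL _ (fun b hb => ?_) c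
  obtain ⟨k, hk, rfl⟩ := List.mem_map.1 hb
  rw [← hr.smul_fs, mul_smul, inv_smul_smul, hgW k (List.mem_range.1 hk)]
  exact hVm k

theorem Good.exists_perm {Cs : Set (Finset GolayPt)} (h : Good Cs) :
    ∃ g : Equiv.Perm GolayPt, ∀ s, s ∈ csets ↔ g • s ∈ Cs := by
  obtain ⟨D, hD, h12⟩ := h.exists_dodecad
  obtain ⟨z, hz⟩ : D.Nonempty := Finset.card_pos.1 (by omega)
  obtain ⟨i, hi, w, hw, hiw⟩ := Finset.one_lt_card.1
    (show 1 < Dᶜ.card by rw [Finset.card_compl, card_pt, h12]; norm_num)
  rw [Finset.mem_compl] at hi hw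
  obtain ⟨c, hc, -, e⟩ := h.exists_word hD h12 hz hw hi hiw
  have h2 : (c \ D).card = 2 := by rw [e, Finset.card_pair hiw]
  have h6 := h.card_inter_of_two hD h12 hc h2
  have h8 := Finset.card_sdiff_add_card_inter c D
  obtain ⟨a, ha1, ha2⟩ := exists_perm_two_sets (s₁ := D) (s₂ := c) (t₁ := fs 4095)
    (t₂ := fs (2016 ^^^ hiP 13)) (by rw [h12, card_fs]; decide +kernel)
    (by rw [← h8, h2, h6, card_fs]; decide +kernel)
    (by rw [Finset.inter_comm, h6, ← fs_and, card_fs]; decide +kernel)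
  obtain ⟨g, hg⟩ := (h.smul a).equiv_of_std ⟨D, hD, ha1⟩ ⟨c, hc, ha2⟩
  have h1 : (a⁻¹ * g) • csets ⊆ Cs := by
    rintro _ ⟨s, hs, rfl⟩
    have := hg s hs
    rw [Set.mem_smul_set_iff_inv_smul_mem] at this
    simpa only [mul_smul] using this
  have h3 : (a⁻¹ * g) • csets = Cs := Set.eq_of_subset_of_ncard_le h1
    (by rw [Set.ncard_smul_set, ncard_csets_all, h.card]) (Set.toFinite _)
  exact ⟨a⁻¹ * g, fun s => by rw [← h3, Set.smul_mem_smul_set_iff]⟩

/-- Uniqueness of the family of C-sets, on any set of 24 points. -/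
theorem Good.exists_equiv {α : Type*} [Fintype α] [DecidableEq α] (hα : Fintype.card α = 24)
    {Cs : Set (Finset α)} (h : Good Cs) :
    ∃ e : GolayPt ≃ α, ∀ s : Finset GolayPt, s ∈ csets ↔ s.image e ∈ Cs := by
  let β : GolayPt ≃ α := Fintype.equivOfCardEq (by rw [card_pt, hα])
  have hG : Good {s : Finset GolayPt | s.image β ∈ Cs} :=
    { sd := fun s hs t ht => by
        rw [Set.mem_ofPred_eq, Finset.image_symmDiff _ _ β.injective]
        exact h.sd _ hs _ ht
      card := by
        rw [← h.card]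
        refine Set.ncard_congr (fun s _ => s.image β) (fun s hs => hs)
          (fun s t _ _ e => Finset.image_injective β.injective e) fun s hs => ?_
        have e : (s.image β.symm).image β = s := by
          rw [Finset.image_image]; simp
        exact ⟨s.image β.symm, by rw [Set.mem_ofPred_eq, e]; exact hs, e⟩
      dvd := fun s hs => by simpa [Finset.card_image_of_injective _ β.injective] using h.dvd _ hs
      ne4 := fun s hs => by simpa [Finset.card_image_of_injective _ β.injective] using h.ne4 _ hs }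
  obtain ⟨g, hg⟩ := hG.exists_perm
  refine ⟨g.trans β, fun s => ?_⟩
  rw [hg, Set.mem_ofPred_eq, Equiv.coe_trans, ← Finset.image_image]
  rfl

theorem golay_unique {α : Type*} [Fintype α] [DecidableEq α] (hα : Fintype.card α = 24)
    (C : Submodule (ZMod 2) (α → ZMod 2)) (hdim : Module.finrank (ZMod 2) C = 12)
    (h4 : ∀ w ∈ C, 4 ∣ hammingNorm w) (hno4 : ∀ w ∈ C, hammingNorm w ≠ 4) :
    ∃ e : α ≃ GolayPt, ∀ w : GolayPt → ZMod 2, w ∈ golayCode ↔ (fun i => w (e i)) ∈ C := by
  have hG : Good (supports (C : Set (α → ZMod 2))) :=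
    { sd := by
        rintro _ ⟨v, hv, rfl⟩ _ ⟨w, hw, rfl⟩
        refine ⟨v + w, C.add_mem hv hw, ?_⟩
        ext p
        simp only [Finset.mem_symmDiff, mem_support₂, Pi.add_apply]
        generalize v p = a; generalize w p = b
        revert a b; decide
      card := by
        rw [supports, Set.InjOn.ncard_image support₂_injective.injOn]
        have h := Module.natCard_eq_pow_finrank (K := ZMod 2) (V := C)
        rw [hdim, Nat.card_zmod] at h
        exact h
      dvd := by rintro _ ⟨w, hw, rfl⟩; rw [← hammingNorm_eq_card]; exact h4 w hw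
      ne4 := by rintro _ ⟨w, hw, rfl⟩; rw [← hammingNorm_eq_card]; exact hno4 w hw }
  obtain ⟨e, he⟩ := hG.exists_equiv hα
  refine ⟨e.symm, fun w => ?_⟩
  have key : (support₂ w).image e = support₂ fun i => w (e.symm i) := by
    ext x
    rw [Finset.mem_image, mem_support₂]
    constructor
    · rintro ⟨p, hp, rfl⟩; simpa using mem_support₂.1 hp
    · intro hx; exact ⟨e.symm x, mem_support₂.2 hx, by simp⟩
  rw [← support₂_mem_csets_iff, he, key]
  constructor
  · rintro ⟨v, hv, e'⟩; rwa [← support₂_injective e']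
  · intro h; exact ⟨_, h, rfl⟩

end H2
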